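import Cfsg.Agent.Lib.Helper86.Suz.Defs
import Cfsg.Agent.Lib.Helper36.SuzDef
import Cfsg.Agent.Lib.Helper71.QuadGroup

set_option autoImplicit false

namespace Cfsg.Agent.Lib.Helper86.Suz

open Cfsg.Agent.Lib.Helper36

universe u
variable {P : Type u} [Group P] {K : Subgroup (MulAut P)}

/-- `#Z - 1` divides `#P - 1` -/
theorem card_sub_one_dvd (h : RegAct P K) (hsq : ∀ x : P, (x * x) * (x * x) = 1) :
    (Nat.card {z : P // z * z = 1} - 1) ∣ (Nat.card P - 1) := by
  classical
  have := h.fin
  have : Fintype P := Fintype.ofFinite P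
  let ι : P → P := fun x => if x * x = 1 then x else x * x
  have hιk : ∀ (k : MulAut P) (x : P), ι (k x) = k (ι x) := by
    intro k x
    by_cases hx : x * x = 1
    · have : k x * k x = 1 := by rw [← map_mul, hx, map_one]
      simp only [ι, if_pos hx, if_pos this]
    · have : k x * k x ≠ 1 := by
        rw [← map_mul]
        intro h0
        exact hx (k.injective (h0.trans (map_one k).symm))
      simp only [ι, if_neg hx, if_neg this, map_mul]
  let T : Finset P := Finset.univ.filter (fun x => x ≠ 1)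
  let I : Finset P := Finset.univ.filter (fun z => z ≠ 1 ∧ z * z = 1)
  have hmaps : ∀ x ∈ T, ι x ∈ I := by
    intro x hx
    have hx1 : x ≠ 1 := (Finset.mem_filter.mp hx).2
    by_cases hx2 : x * x = 1
    · simp only [ι, if_pos hx2]
      exact Finset.mem_filter.mpr ⟨Finset.mem_univ _, hx1, hx2⟩
    · simp only [ι, if_neg hx2]
      exact Finset.mem_filter.mpr ⟨Finset.mem_univ _, hx2, hsq x⟩
  have hT : T.card = Nat.card P - 1 := by
    rw [Nat.card_eq_fintype_card]
    have : T = Finset.univ.erase 1 := by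
      ext x; simp [T]
    rw [this, Finset.card_erase_of_mem (Finset.mem_univ _), Finset.card_univ]
  have hI : I.card = Nat.card {z : P // z * z = 1} - 1 := by
    rw [Nat.card_eq_fintype_card, Fintype.card_subtype]
    have : I = (Finset.univ.filter (fun z : P => z * z = 1)).erase 1 := by
      ext x; simp [I]
    rw [this, Finset.card_erase_of_mem (by simp)]
  rw [← hT, ← hI]
  have hsum := Finset.card_eq_sum_card_fiberwise (f := ι) (s := T) (t := I) hmaps
  by_cases hne : I.Nonempty
  · obtain ⟨z₀, hz₀⟩ := hne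
    have hfib : ∀ z ∈ I, (T.filter (fun x => ι x = z)).card = (T.filter (fun x => ι x = z₀)).card := by
      intro z hz
      obtain ⟨-, hz1, hz2⟩ := Finset.mem_filter.mp hz
      obtain ⟨-, hz01, hz02⟩ := Finset.mem_filter.mp hz₀
      obtain ⟨k, -, hk⟩ := h.tr z z₀ hz1 hz2 hz01 hz02
      apply Finset.card_bij (fun x _ => k x)
      · intro x hx
        obtain ⟨hxT, hxz⟩ := Finset.mem_filter.mp hx
        refine Finset.mem_filter.mpr ⟨Finset.mem_filter.mpr ⟨Finset.mem_univ _, ?_⟩, ?_⟩
        · intro h0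
          exact (Finset.mem_filter.mp hxT).2 (k.injective (h0.trans (map_one k).symm))
        · rw [hιk, hxz, hk]
      · intro x _ y _ hxy
        exact k.injective hxy
      · intro y hy
        obtain ⟨hyT, hyz⟩ := Finset.mem_filter.mp hy
        refine ⟨k⁻¹ y, Finset.mem_filter.mpr ⟨Finset.mem_filter.mpr ⟨Finset.mem_univ _, ?_⟩, ?_⟩, ?_⟩
        · intro h0
          apply (Finset.mem_filter.mp hyT).2
          have := congrArg k h0
          rwa [MulAut.apply_inv_self, map_one] at this
        · apply k.injective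
          rw [← hιk, MulAut.apply_inv_self, hyz, hk]
        · exact MulAut.apply_inv_self _ k y
    rw [hsum, Finset.sum_congr rfl hfib, Finset.sum_const, smul_eq_mul]
    exact Dvd.intro _ rfl
  · rw [Finset.not_nonempty_iff_eq_empty] at hne
    rw [hsum, hne]
    simp

/-- GF -/
theorem card_of_suzuki (hP : Cfsg.IsSuzukiTwoGroup P) (hsq : ∀ x : P, (x * x) * (x * x) = 1) :
    Nat.card P = Nat.card (Subgroup.center P) ^ 2 ∨ Nat.card P = Nat.card (Subgroup.center P) ^ 3 := by
  classical
  obtain ⟨K, hK⟩ := regAct_of_suzuki hP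
  have hfin := hK.fin
  have hfact : Fact (Nat.Prime 2) := ⟨Nat.prime_two⟩
  obtain ⟨hinv, hcsq⟩ := suzuki_center hP
  have hmemZ : ∀ z : P, z ∈ Subgroup.center P ↔ z * z = 1 := by
    intro z
    constructor
    · exact hcsq z
    · intro hz
      exact Subgroup.mem_center_iff.mpr (fun g => (hK.inv_central hz g).symm)
  have hcardZ : Nat.card {z : P // z * z = 1} = Nat.card (Subgroup.center P) :=
    Nat.card_congr (Equiv.subtypeEquivRight (fun z => (hmemZ z).symm))
  have hdvd := card_sub_one_dvd hK hsq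
  rw [hcardZ] at hdvd
  obtain ⟨a, ha⟩ := hK.two.exists_card_eq
  obtain ⟨n, hn⟩ := (hK.two.to_subgroup (Subgroup.center P)).exists_card_eq
  rw [ha, hn] at hdvd ⊢
  -- `n ∣ a`
  have hna : n ∣ a := by
    have h1 := Nat.pow_sub_one_gcd_pow_sub_one 2 a n
    rw [Nat.gcd_eq_right hdvd] at h1
    have h2 : 2 ^ n = 2 ^ (Nat.gcd a n) := by
      have p1 : 1 ≤ 2 ^ n := Nat.one_le_two_pow
      have p2 : 1 ≤ 2 ^ (Nat.gcd a n) := Nat.one_le_two_pow
      omega
    have h3 := Nat.pow_right_injective (le_refl 2) h2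
    rw [h3]
    exact Nat.gcd_dvd_left a n
  -- `n ≠ 0`
  have hn0 : n ≠ 0 := by
    rintro rfl
    rw [pow_zero] at hn
    obtain ⟨x, y, -, hx1, hx2, -, -⟩ := hP.2.2.2.1
    have hxZ := (hmemZ x).mpr hx2
    have := (Nat.card_eq_one_iff_unique.mp hn).1
    exact hx1 (congrArg Subtype.val (Subsingleton.elim (⟨x, hxZ⟩ : Subgroup.center P) 1))
  -- `a ≠ n`
  have han : a ≠ n := by
    rintro rfl
    have htop : Subgroup.center P = ⊤ := Subgroup.eq_top_of_card_eq _ (by rw [hn, ha])
    obtain ⟨x, y, hxy⟩ := hP.2.2.1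
    apply hxy
    have hx : x ∈ Subgroup.center P := by rw [htop]; trivial
    exact (Subgroup.mem_center_iff.mp hx y).symm
  -- `a ≤ 3 n`
  have hle : a ≤ 3 * n := by
    by_contra hcon
    have hidx : (Subgroup.center P).index * 2 ^ n = 2 ^ a := by
      rw [← hn, ← ha, mul_comm]; exact Subgroup.card_mul_index _
    have hlt : ((⊥ : Subgroup P).relIndex (Subgroup.center P)) ^ 2
        < (Subgroup.center P).relIndex ⊤ := by
      rw [Subgroup.relIndex_bot_left, Subgroup.relIndex_top_right, hn]
      have h1 : 2 ^ a = 2 ^ (a - n) * 2 ^ n := by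
        rw [← pow_add]; congr 1; omega
      rw [h1] at hidx
      have h2 := Nat.eq_of_mul_eq_mul_right (by positivity) hidx
      rw [h2, ← pow_mul]
      exact Nat.pow_lt_pow_right (by norm_num) (by omega)
    have h1 : ∀ x : P, x * x ∈ Subgroup.center P := fun x => (hmemZ _).mpr (hsq x)
    obtain ⟨x, -, hxZ, hx2⟩ := Helper71.exists_sq_mem (⊤ : Subgroup P) (Subgroup.center P)
      (Subgroup.center P) ⊥ le_top le_rfl bot_le
      (fun r hr u _ => (Subgroup.mem_center_iff.mp hr u).symm)
      (fun r hr => hcsq r hr) (fun x _ => h1 x)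
      (fun x _ y _ => by
        have e : x⁻¹ * y * x * y⁻¹ = (x⁻¹ * x⁻¹) * ((x * y) * (x * y)) * (y⁻¹ * y⁻¹) := by group
        rw [e]
        exact Subgroup.mul_mem _ (Subgroup.mul_mem _ (h1 _) (h1 _)) (h1 _))
      (fun x _ m hm => by
        rw [Subgroup.mem_bot]
        have hc := Subgroup.mem_center_iff.mp hm x
        calc (x * m) * (x * m) * (x * x)⁻¹ = x * (m * x) * m * (x * x)⁻¹ := by group
          _ = x * (x * m) * m * (x * x)⁻¹ := by rw [hc]
          _ = (x * x) * (m * m) * (x * x)⁻¹ := by group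
          _ = 1 := by rw [hcsq m hm]; group)
      hlt
    exact hxZ ((hmemZ x).mpr (Subgroup.mem_bot.mp hx2))
  have hale : n ≤ a := Nat.le_of_dvd (by
    rcases Nat.eq_zero_or_pos a with h0 | h0
    · subst h0
      have := Nat.eq_zero_of_zero_dvd (a := n) |>.mt
      exfalso
      have hle' : Nat.card (Subgroup.center P) ≤ Nat.card P := Subgroup.card_le_card_group _
      rw [hn, ha, pow_zero] at hle'
      have : 2 ≤ 2 ^ n := by
        calc 2 = 2 ^ 1 := by norm_num
          _ ≤ 2 ^ n := Nat.pow_le_pow_right (by norm_num) (by omega)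
      omega
    · exact h0) hna
  obtain ⟨c, rfl⟩ := hna
  have hc : c = 2 ∨ c = 3 := by
    have hnpos : 0 < n := Nat.pos_of_ne_zero hn0
    have h3 : c ≤ 3 := by
      by_contra h
      have : n * 4 ≤ n * c := Nat.mul_le_mul_left n (by omega)
      omega
    have h1 : c ≠ 1 := by rintro rfl; exact han (mul_one n)
    have h0 : c ≠ 0 := by rintro rfl; omega
    omega
  rcases hc with rfl | rfl
  · left; rw [pow_mul]
  · right; rw [pow_mul]

end Cfsg.Agent.Lib.Helper86.Suz
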