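import Cfsg.Agent.Lib.Helper16.Ess.Alpha
import Cfsg.Agent.Lib.Helper86.FusionNormal

set_option autoImplicit false

namespace Cfsg.Agent.Lib.Helper86.Suz

open Cfsg Cfsg.FusionSystem Cfsg.Agent.Lib Cfsg.Agent.Lib.Helper86 Cfsg.Agent.Lib.Helper86.Oliver

/-- GG -/
theorem isNormal_of_sq {Ω : Type*} [Group Ω] {S : Subgroup Ω} [Finite S] (hS : IsPGroup 2 S)
    (F : Cfsg.FusionSystem S) (hF : F.IsSaturated 2)
    (h1 : ∀ x ∈ S, x * x = 1 → ∀ y ∈ S, x * y = y * x) (h2 : ∀ x ∈ S, (x * x) * (x * x) = 1) :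
    F.IsNormal S := by
  have hfact : Fact (Nat.Prime 2) := ⟨Nat.prime_two⟩
  have hmul : ∀ a ∈ S, ∀ b ∈ S, a * a = 1 → b * b = 1 → (a * b) * (a * b) = 1 := by
    intro a ha b hb ha2 hb2
    calc (a * b) * (a * b) = a * (b * a) * b := by group
      _ = a * (a * b) * b := by rw [h1 b hb hb2 a ha]
      _ = (a * a) * (b * b) := by group
      _ = 1 := by rw [ha2, hb2, mul_one]
  have hnoess : ∀ E : Subgroup Ω, ¬ F.IsEssential 2 E := by
    intro E hE
    have hES : E ≤ S := hE.1.1
    obtain ⟨g, hgS, hgN, hgE⟩ := exists_normalizer_growth hS (essential_lt hS hF hE)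
    apply hgE
    let Om : Subgroup E :=
      { carrier := {x | x * x = 1}
        one_mem' := mul_one 1
        mul_mem' := by
          intro a b ha hb
          apply Subtype.ext
          exact hmul a (hES a.2) b (hES b.2) (congrArg Subtype.val ha) (congrArg Subtype.val hb)
        inv_mem' := by
          intro a ha
          have ha' : a * a = 1 := ha
          change a⁻¹ * a⁻¹ = 1
          rw [← mul_inv_rev, ha', inv_one] }
    have hOm : ∀ x : E, x ∈ Om ↔ x * x = 1 := fun _ => Iff.rfl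
    let X : ℕ → Subgroup E := fun i => match i with
      | 0 => ⊥
      | 1 => Om
      | _ => ⊤
    refine Helper16.Ess.mem_of_stabilizes_chain hS F hF hE 2 X rfl rfl ?_ hgS hgN ?_
    · intro i α _ x hx
      rcases i with _ | _ | i
      · have hx' : x = 1 := Subgroup.mem_bot.mp hx
        rw [hx', map_one]; exact Subgroup.one_mem _
      · have hx' : x * x = 1 := hx
        change α x * α x = 1
        rw [← map_mul, hx', map_one]
      · exact Subgroup.mem_top _
    · intro i hi x hx
      rcases i with _ | _ | i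
      · have hx' : x * x = 1 := hx
        change x⁻¹ * conjAut E g hgN x ∈ (⊥ : Subgroup E)
        rw [Subgroup.mem_bot]
        apply Subtype.ext
        have hc := h1 x (hES x.2) (congrArg Subtype.val hx') g hgS
        change (x : Ω)⁻¹ * (g * x * g⁻¹) = 1
        rw [← hc]; group
      · change x⁻¹ * conjAut E g hgN x ∈ Om
        rw [hOm]
        apply Subtype.ext
        change ((x : Ω)⁻¹ * (g * x * g⁻¹)) * ((x : Ω)⁻¹ * (g * x * g⁻¹)) = 1
        have hxS : (x : Ω) ∈ S := hES x.2
        have e : (x : Ω)⁻¹ * (g * x * g⁻¹)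
            = (((x : Ω)⁻¹ * (x : Ω)⁻¹) * (((x : Ω) * g) * ((x : Ω) * g))) * (g⁻¹ * g⁻¹) := by group
        rw [e]
        have s1 := S.inv_mem hxS
        have s2 := S.mul_mem hxS hgS
        have s3 := S.inv_mem hgS
        exact hmul _ (S.mul_mem (S.mul_mem s1 s1) (S.mul_mem s2 s2)) _ (S.mul_mem s3 s3)
          (hmul _ (S.mul_mem s1 s1) _ (S.mul_mem s2 s2) (h2 _ s1) (h2 _ s2)) (h2 _ s3)
      · omega
  refine isNormal_of_invariant hS F hF ?_
  rintro P (rfl | hP)
  · refine ⟨le_rfl, fun α _ => ?_⟩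
    rw [Subgroup.subgroupOf_self]
    exact Subgroup.map_top_of_surjective _ α.surjective
  · exact absurd hP (hnoess P)

end Cfsg.Agent.Lib.Helper86.Suz
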