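import Cfsg.Agent.Lib.Helper86.Suz.Main
import Cfsg.Agent.Lib.Helper86.Suz.GF

set_option autoImplicit false

namespace Cfsg.Agent.Lib.Helper86.Suz

open Cfsg.Agent.Lib.Helper36

universe u
variable {P : Type u} [Group P]

theorem higman_of_card (hP : Cfsg.IsSuzukiTwoGroup P)
    (hcard : Nat.card P = Nat.card (Subgroup.center P) ^ 2 ∨
      Nat.card P = Nat.card (Subgroup.center P) ^ 3) :
    (∀ x : P, x * x ∈ Subgroup.center P) ∧ (∀ x y : P, x⁻¹ * y⁻¹ * x * y ∈ Subgroup.center P) ∧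
      (Nat.card P = Nat.card (Subgroup.center P) ^ 2 ∨ Nat.card P = Nat.card (Subgroup.center P) ^ 3) ∧
      Monoid.exponent P = 4 := by
  obtain ⟨K, hK⟩ := regAct_of_suzuki hP
  have hsq := sq_sq_of_suzuki hP
  have h1 : ∀ x : P, x * x ∈ Subgroup.center P := fun x =>
    Subgroup.mem_center_iff.mpr (fun g => (hK.inv_central (hsq x) g).symm)
  refine ⟨h1, ?_, hcard, ?_⟩
  · intro x y
    have e : x⁻¹ * y⁻¹ * x * y = (x⁻¹ * x⁻¹) * ((x * y⁻¹) * (x * y⁻¹)) * (y * y) := by group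
    rw [e]
    exact Subgroup.mul_mem _ (Subgroup.mul_mem _ (h1 _) (h1 _)) (h1 _)
  · have hd : Monoid.exponent P ∣ 4 := by
      apply Monoid.exponent_dvd_of_forall_pow_eq_one
      intro x
      have := hsq x
      calc x ^ 4 = (x * x) * (x * x) := by
            rw [show (4 : ℕ) = 2 + 2 from rfl, pow_add, pow_two]
        _ = 1 := this
    have hn2 : ¬ Monoid.exponent P ∣ 2 := by
      intro h2
      obtain ⟨x, y, hxy⟩ := hP.2.2.1
      apply hxy
      apply hK.inv_central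
      obtain ⟨c, hc⟩ := h2
      calc x * x = x ^ 2 := (pow_two x).symm
        _ = (x ^ Monoid.exponent P) ^ c := by rw [hc, pow_mul]
        _ = 1 := by rw [Monoid.pow_exponent_eq_one, one_pow]
    obtain ⟨k, hk, hk2⟩ := (Nat.dvd_prime_pow Nat.prime_two (m := 2)).mp (by simpa using hd)
    interval_cases k
    · exact absurd (by rw [hk2]; norm_num) hn2
    · exact absurd (by rw [hk2]; norm_num) hn2
    · rw [hk2]; norm_num

theorem higman (hP : Cfsg.IsSuzukiTwoGroup P) :
    (∀ x : P, x * x ∈ Subgroup.center P) ∧ (∀ x y : P, x⁻¹ * y⁻¹ * x * y ∈ Subgroup.center P) ∧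
      (Nat.card P = Nat.card (Subgroup.center P) ^ 2 ∨ Nat.card P = Nat.card (Subgroup.center P) ^ 3) ∧
      Monoid.exponent P = 4 :=
  higman_of_card hP (card_of_suzuki hP (sq_sq_of_suzuki hP))

end Cfsg.Agent.Lib.Helper86.Suz
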