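import Cfsg.Agent.Lib.Helper86.Suz.Main
import Cfsg.Agent.Lib.Helper86.Suz.GG

set_option autoImplicit false

namespace Cfsg.Agent.Lib.Helper86.Suz

open Cfsg.Agent.Lib.Helper36

theorem isNormal_of_suzuki {Ω : Type*} [Group Ω] {S : Subgroup Ω} [Finite S] (hS : IsPGroup 2 S)
    (F : Cfsg.FusionSystem S) (hF : F.IsSaturated 2) (hsz : Cfsg.IsSuzukiTwoGroup ↥S) :
    F.IsNormal S := by
  obtain ⟨K, hK⟩ := regAct_of_suzuki hsz
  refine isNormal_of_sq hS F hF ?_ ?_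
  · intro x hx hx2 y hy
    exact congrArg Subtype.val
      (hK.inv_central (x := ⟨x, hx⟩) (Subtype.ext hx2) ⟨y, hy⟩)
  · intro x hx
    exact congrArg Subtype.val (sq_sq_of_suzuki hsz ⟨x, hx⟩)

end Cfsg.Agent.Lib.Helper86.Suz
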